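import Mathlib
import Cfsg.Agent.S0016

/-! S5720: rank tools for fixed spaces. -/

set_option autoImplicit false

namespace CF.Dv

open Module

section End

variable {K V : Type*} [Field K] [AddCommGroup V] [Module K V] [FiniteDimensional K V]

/-- dimension of the kernel -/
noncomputable abbrev kd (A : Module.End K V) : ℕ := finrank K (LinearMap.ker A)

theorem kd_mul_le (A B : Module.End K V) : kd (A * B) ≤ kd A + kd B := by
  let f : LinearMap.ker (A * B) →ₗ[K] LinearMap.ker A :=
    (B.domRestrict (LinearMap.ker (A * B))).codRestrict _ (fun v => by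
      have := v.2
      rw [LinearMap.mem_ker] at this ⊢
      exact this)
  have h1 := f.finrank_range_add_finrank_ker
  have h2 : finrank K (LinearMap.range f) ≤ kd A := Submodule.finrank_le _
  have h3 : finrank K (LinearMap.ker f) ≤ kd B := by
    let g : LinearMap.ker f →ₗ[K] LinearMap.ker B :=
      (((LinearMap.ker (A * B)).subtype).comp (LinearMap.ker f).subtype).codRestrict _ (fun v => by
        have := v.2
        rw [LinearMap.mem_ker] at this
        have h := congrArg Subtype.val this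
        rw [LinearMap.mem_ker]
        exact h)
    apply LinearMap.finrank_le_finrank_of_injective (f := g)
    intro a b hab
    have := congrArg Subtype.val hab
    exact Subtype.ext (Subtype.ext this)
  unfold kd at *
  omega

theorem kd_pow_le (A : Module.End K V) (n : ℕ) : kd (A ^ n) ≤ n * kd A := by
  induction n with
  | zero =>
    have : LinearMap.ker (A ^ 0) = ⊥ := by rw [pow_zero]; exact LinearMap.ker_id
    unfold kd
    rw [this]; simp
  | succ n ih =>
    rw [pow_succ]
    have := kd_mul_le (A ^ n) A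
    nlinarith

theorem kd_zero : kd (0 : Module.End K V) = finrank K V := by
  unfold kd
  rw [LinearMap.ker_zero, finrank_top]

theorem inf_ge (p q : Submodule K V) :
    finrank K p + finrank K q ≤ finrank K V + finrank K (p ⊓ q : Submodule K V) := by
  have := Submodule.finrank_sup_add_finrank_inf_eq p q
  have h2 : finrank K (p ⊔ q : Submodule K V) ≤ finrank K V := Submodule.finrank_le _
  omega

/-- if `A * P = 0` then the kernel of `P` has codimension at most `kd A` -/
theorem le_kd_add (A P : Module.End K V) (h : A * P = 0) : finrank K V ≤ kd P + kd A := by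
  have := kd_mul_le A P
  rw [h, kd_zero] at this
  omega

theorem iInf_ge {ι : Type*} (s : Finset ι) (p : ι → Submodule K V) (r : ℕ)
    (h : ∀ i ∈ s, finrank K V ≤ finrank K (p i) + r) :
    finrank K V ≤ finrank K (⨅ i ∈ s, p i : Submodule K V) + s.card * r := by
  classical
  induction s using Finset.induction_on with
  | empty =>
    have : (⨅ i ∈ (∅ : Finset ι), p i : Submodule K V) = ⊤ := by simp
    rw [this, finrank_top]; simp
  | insert a s ha ih =>
    rw [Finset.iInf_insert, Finset.card_insert_of_notMem ha]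
    have h1 := ih (fun i hi => h i (Finset.mem_insert_of_mem hi))
    have h2 := h a (Finset.mem_insert_self _ _)
    have h3 := inf_ge (p a) (⨅ i ∈ s, p i)
    nlinarith

theorem geom_ker (c : Module.End K V) (n : ℕ) (hc : c ^ n = 1) :
    finrank K V ≤ kd (∑ i ∈ Finset.range n, c ^ i) + kd (c - 1) := by
  apply le_kd_add
  rw [mul_geom_sum, hc, sub_self]

theorem unip (c : Module.End K V) {p : ℕ} (hp : p.Prime) (hp2 : p ≠ 2) (hK : (p : K) = 0)
    (hc : c ^ p = 1) : finrank K V ≤ p * kd (c - 1) := by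
  have h0 : (p : Module.End K V) = 0 := by
    rw [← map_natCast (algebraMap K (Module.End K V)), hK, map_zero]
  obtain ⟨r, hr⟩ := (Commute.neg_one_right c).exists_add_pow_prime_eq hp
  rw [h0, hc, (hp.odd_of_ne_two hp2).neg_one_pow] at hr
  have : (c - 1) ^ p = 0 := by rw [sub_eq_add_neg, hr]; simp
  have h2 := kd_pow_le (c - 1) p
  rwa [this, kd_zero] at h2

end End

theorem geom_pow {R : Type*} [Ring R] (a : R) {p : ℕ} [hp : Fact p.Prime] (ha : a ^ p = 1) {i : ℕ}
    (hi : (i : ZMod p) ≠ 0) :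
    ∑ j ∈ Finset.range p, (a ^ i) ^ j = ∑ j ∈ Finset.range p, a ^ j := by
  have hm : ∀ n : ℕ, a ^ n = a ^ ((n : ZMod p).val) := by
    intro n
    rw [ZMod.val_natCast]
    conv_lhs => rw [← Nat.mod_add_div n p, pow_add, pow_mul, ha, one_pow, mul_one]
  have e : ∀ f : ℕ → R, ∑ j ∈ Finset.range p, f j = ∑ j : ZMod p, f j.val := by
    intro f
    symm
    refine Finset.sum_bij (fun j _ => j.val) (fun j _ => Finset.mem_range.2 (ZMod.val_lt j))
      (fun a _ b _ h => ZMod.val_injective p h) (fun b hb => ⟨(b : ZMod p), Finset.mem_univ _, ?_⟩)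
      (fun _ _ => rfl)
    exact ZMod.val_cast_of_lt (Finset.mem_range.1 hb)
  rw [e, e, ← Equiv.sum_comp (Equiv.mulLeft₀ (i : ZMod p) hi) (fun j => a ^ j.val)]
  refine Finset.sum_congr rfl (fun j _ => ?_)
  rw [← pow_mul, hm]
  simp

section Rep

variable {H : Type*} [Group H] {K V : Type*} [Field K] [AddCommGroup V] [Module K V]
  [FiniteDimensional K V]

/-- all fixed spaces are small -/
def Small (ρ : Representation K H V) : Prop :=
  ∀ h : H, h ≠ 1 → 6 * kd (ρ h - 1) < finrank K V

theorem Small.comp {ρ : Representation K H V} (hs : Small ρ) {L : Type*} [Group L] (f : L →* H)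
    (hf : Function.Injective f) : Small (ρ.comp f : Representation K L V) := by
  intro h hh
  exact hs (f h) (fun e => hh (hf (e.trans f.map_one.symm)))

theorem Small.inv_unique {ρ : Representation K H V} (hs : Small ρ) {a b : H} (ha : a ^ 2 = 1)
    (hb : b ^ 2 = 1) (ha1 : a ≠ 1) (hb1 : b ≠ 1) : a = b := by
  by_contra hne
  have hab : a * b ≠ 1 := by
    intro h
    apply hne
    have : a * (a * b) = a := by rw [h, mul_one]
    rw [← mul_assoc, ← pow_two, ha, one_mul] at this
    exact this.symm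
  have h1 := geom_ker (ρ a) 2 (by rw [← map_pow, ha, map_one])
  have h2 := geom_ker (ρ b) 2 (by rw [← map_pow, hb, map_one])
  have h3 := inf_ge (LinearMap.ker (∑ i ∈ Finset.range 2, ρ a ^ i))
    (LinearMap.ker (∑ i ∈ Finset.range 2, ρ b ^ i))
  have h4 : finrank K ((LinearMap.ker (∑ i ∈ Finset.range 2, ρ a ^ i)) ⊓
      (LinearMap.ker (∑ i ∈ Finset.range 2, ρ b ^ i)) : Submodule K V) ≤ kd (ρ (a * b) - 1) := by
    apply Submodule.finrank_mono
    rintro v ⟨h1, h2⟩
    simp only [Finset.sum_range_succ, Finset.range_zero, Finset.sum_empty, pow_zero, zero_add,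
      pow_one, SetLike.mem_coe, LinearMap.mem_ker, LinearMap.add_apply, Module.End.one_apply] at h1 h2
    have e1 : ρ a v = -v := eq_neg_of_add_eq_zero_right h1
    have e2 : ρ b v = -v := eq_neg_of_add_eq_zero_right h2
    simp [LinearMap.mem_ker, e1, e2]
  have := hs a ha1
  have := hs b hb1
  have := hs _ hab
  unfold kd at *
  omega

theorem Small.inv_central {ρ : Representation K H V} (hs : Small ρ) {a : H} (ha : a ^ 2 = 1)
    (g : H) : g * a = a * g := by
  by_cases ha1 : a = 1
  · simp [ha1]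
  have h1 : (g * a * g⁻¹) ^ 2 = 1 := by rw [conj_pow, ha]; simp
  have h2 : g * a * g⁻¹ ≠ 1 := by
    intro h
    apply ha1
    have : a = g⁻¹ * (g * a * g⁻¹) * g := by group
    rw [this, h]; simp
  have := hs.inv_unique h1 ha h2 ha1
  calc g * a = (g * a * g⁻¹) * g := by group
    _ = a * g := by rw [this]

theorem kd_conj (ρ : Representation K H V) (g c : H) :
    kd (ρ (g * c * g⁻¹) - 1) ≤ kd (ρ c - 1) := by
  have e : ρ (g * c * g⁻¹) - 1 = ρ g * ((ρ c - 1) * ρ g⁻¹) := by
    rw [sub_mul, mul_sub, one_mul, ← map_mul, ← map_mul, ← map_mul, mul_inv_cancel, map_one,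
      mul_assoc]
  have k0 : ∀ x : H, kd (ρ x) = 0 := by
    intro x
    have : LinearMap.ker (ρ x) = ⊥ := by
      rw [LinearMap.ker_eq_bot']
      intro v hv
      have := congrArg (ρ x⁻¹) hv
      rwa [← Module.End.mul_apply, ← map_mul, inv_mul_cancel, map_one, map_zero] at this
    simp [kd, this]
  rw [e]
  have h1 := kd_mul_le (ρ g) ((ρ c - 1) * ρ g⁻¹)
  have h2 := kd_mul_le (ρ c - 1) (ρ g⁻¹)
  rw [k0] at h1 h2
  omega

/-- an element of order 3 centralises commuting conjugates -/
theorem Small.v3 {ρ : Representation K H V} (hs : Small ρ) {c w : H} (hc : c ^ 3 = 1)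
    (h1 : Commute w (c * w * c⁻¹)) (h2 : Commute w (c ^ 2 * w * (c ^ 2)⁻¹))
    (h3 : Commute (c * w * c⁻¹) (c ^ 2 * w * (c ^ 2)⁻¹)) : c * w = w * c := by
  by_contra hne
  have hc1 : c ≠ 1 := by rintro rfl; simp at hne
  set w2 := c * w * c⁻¹ with hw2
  set w3 := c ^ 2 * w * (c ^ 2)⁻¹ with hw3
  set α := w * w2⁻¹ with hα
  set β := w * w3⁻¹ with hβ
  have hα1 : α ≠ 1 := by
    intro h
    apply hne
    have : w = w2 := mul_inv_eq_one.1 h
    calc c * w = w2 * c := by rw [hw2]; group
      _ = w * c := by rw [← this]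
  have hβ1 : β ≠ 1 := by
    intro h
    apply hne
    have h5 : w = w3 := mul_inv_eq_one.1 h
    have h6 : Commute (c ^ 2) w := by
      show c ^ 2 * w = w * c ^ 2
      calc c ^ 2 * w = w3 * c ^ 2 := by rw [hw3]; group
        _ = w * c ^ 2 := by rw [← h5]
    have h7 := h6.pow_left 2
    rw [← pow_mul, show 2 * 2 = 3 + 1 by norm_num, pow_succ, hc, one_mul] at h7
    exact h7
  have hαβ : Commute α β := by
    refine Commute.mul_left (Commute.mul_right (Commute.refl _) h2.inv_right) ?_
    exact Commute.mul_right h1.symm.inv_left h3.inv_inv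
  have e1 : w * c * w⁻¹ = α * c := by rw [hα, hw2]; group
  have e2 : (w * c * w⁻¹) ^ 2 = β * c ^ 2 := by rw [hβ, hw3, conj_pow]; group
  have e3 : w ^ 2 * c * (w ^ 2)⁻¹ = α * α * c := by
    have : α * α = w ^ 2 * (w2 ^ 2)⁻¹ := by
      rw [← pow_two, hα, h1.inv_right.mul_pow, inv_pow]
    rw [this, hw2, conj_pow]; group
  have e4 : (w ^ 2 * c * (w ^ 2)⁻¹) ^ 2 = β * β * c ^ 2 := by
    have : β * β = w ^ 2 * (w3 ^ 2)⁻¹ := by
      rw [← pow_two, hβ, h2.inv_right.mul_pow, inv_pow]
    rw [this, hw3, conj_pow, conj_pow]; group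
  have g0 := geom_ker (ρ c) 3 (by rw [← map_pow, hc, map_one])
  have g1 := geom_ker (ρ (w * c * w⁻¹)) 3 (by rw [← map_pow, conj_pow, hc]; simp)
  have g2 := geom_ker (ρ (w ^ 2 * c * (w ^ 2)⁻¹)) 3 (by rw [← map_pow, conj_pow, hc]; simp)
  have k1 := kd_conj ρ w c
  have k2 := kd_conj ρ (w ^ 2) c
  set P0 := ∑ i ∈ Finset.range 3, ρ c ^ i with hP0
  set P1 := ∑ i ∈ Finset.range 3, ρ (w * c * w⁻¹) ^ i with hP1
  set P2 := ∑ i ∈ Finset.range 3, ρ (w ^ 2 * c * (w ^ 2)⁻¹) ^ i with hP2
  have key : (ρ α - 1) * (ρ β - 1) = ρ α * ρ β * P0 - (ρ α + ρ β) * P1 + P2 := by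
    have hc' : ρ α * ρ β = ρ β * ρ α := by rw [← map_mul, ← map_mul, hαβ.eq]
    rw [hP0, hP1, hP2]
    simp only [Finset.sum_range_succ, Finset.range_zero, Finset.sum_empty, pow_zero, zero_add,
      pow_one, ← map_pow]
    rw [e4, e3, e2, e1]
    simp only [map_mul, map_one]
    set A := ρ α
    set B := ρ β
    set C := ρ c
    set D := ρ (c ^ 2)
    have : B * (A * C) = A * B * C := by rw [← mul_assoc, ← hc']
    have h9 : (A + B) * (1 + A * C + B * D) =
      A + B + (A * A * C + B * (A * C)) + (A * B * D + B * B * D) := by noncomm_ring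
    rw [h9, this]
    noncomm_ring
  have i1 := inf_ge (LinearMap.ker P0) (LinearMap.ker P1)
  have i2 := inf_ge (LinearMap.ker P0 ⊓ LinearMap.ker P1) (LinearMap.ker P2)
  have i3 : finrank K ((LinearMap.ker P0 ⊓ LinearMap.ker P1) ⊓ LinearMap.ker P2 : Submodule K V) ≤
      kd ((ρ α - 1) * (ρ β - 1)) := by
    apply Submodule.finrank_mono
    rintro v ⟨⟨h1, h2⟩, h3⟩
    simp only [SetLike.mem_coe, LinearMap.mem_ker] at h1 h2 h3
    rw [LinearMap.mem_ker, key]
    simp [h1, h2, h3]
  have i4 := kd_mul_le (ρ α - 1) (ρ β - 1)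
  have := hs c hc1
  have := hs α hα1
  have := hs β hβ1
  unfold kd at *
  omega

theorem Small.ne_char {ρ : Representation K H V} (hs : Small ρ) {p : ℕ} (hp : p.Prime)
    (hp2 : p ≠ 2) (hp5 : p ≤ 6) {a : H} (ha : a ^ p = 1) (ha1 : a ≠ 1) : (p : K) ≠ 0 := by
  intro hK
  have h1 := unip (ρ a) hp hp2 hK (by rw [← map_pow, ha, map_one])
  have h2 := hs a ha1
  nlinarith

/-- no elementary abelian subgroup of order 9 or 25 -/
theorem Small.ep {ρ : Representation K H V} (hs : Small ρ) {p : ℕ} [hp : Fact p.Prime]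
    (hp2 : p ≠ 2) (hp5 : p ≤ 5) {a b : H} (ha : a ^ p = 1) (hb : b ^ p = 1) (hab : Commute a b)
    (ha1 : a ≠ 1) : ∃ j : ℕ, a ^ j * b = 1 := by
  by_contra hn
  push Not at hn
  have hK := hs.ne_char hp.out hp2 (by omega) ha ha1
  set d := finrank K V with hd
  obtain ⟨f, hf1, hf2⟩ : ∃ f : ℕ, 6 * f < d ∧ ∀ h : H, h ≠ 1 → kd (ρ h - 1) ≤ f := by
    refine ⟨(d - 1) / 6, ?_, fun h hh => ?_⟩
    · have := hs a ha1; omega
    · have := hs h hh; omega
  have hj : ∀ j : ℕ, (a ^ j * b) ^ p = 1 := by
    intro j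
    rw [(hab.pow_left j).mul_pow, hb, ← pow_mul, mul_comm j p, pow_mul, ha]; simp
  have g1 := iInf_ge (Finset.range p)
    (fun j => LinearMap.ker (∑ i ∈ Finset.range p, ρ (a ^ j * b) ^ i)) f (fun j _ => by
      have := geom_ker (ρ (a ^ j * b)) p (by rw [← map_pow, hj, map_one])
      have := hf2 _ (hn j)
      unfold kd at *
      omega)
  have g0 := geom_ker (ρ a) p (by rw [← map_pow, ha, map_one])
  have i1 := inf_ge (⨅ j ∈ Finset.range p,
    LinearMap.ker (∑ i ∈ Finset.range p, ρ (a ^ j * b) ^ i))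
    (LinearMap.ker (∑ i ∈ Finset.range p, ρ a ^ i))
  have i2 : (⨅ j ∈ Finset.range p, LinearMap.ker (∑ i ∈ Finset.range p, ρ (a ^ j * b) ^ i)) ⊓
      (LinearMap.ker (∑ i ∈ Finset.range p, ρ a ^ i)) = ⊥ := by
    rw [eq_bot_iff]
    rintro v ⟨h1, h2⟩
    simp only [SetLike.mem_coe, Submodule.mem_iInf, LinearMap.mem_ker] at h1 h2
    have s1 : (∑ j ∈ Finset.range p, ∑ i ∈ Finset.range p, ρ (a ^ j * b) ^ i) v = 0 := by
      rw [LinearMap.sum_apply]
      exact Finset.sum_eq_zero h1
    rw [Finset.sum_comm, LinearMap.sum_apply] at s1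
    have s2 : ∀ i ∈ Finset.range p, i ≠ 0 →
        (∑ j ∈ Finset.range p, ρ (a ^ j * b) ^ i) v = 0 := by
      intro i hi hi0
      have e : ∑ j ∈ Finset.range p, ρ (a ^ j * b) ^ i =
          ρ b ^ i * ∑ j ∈ Finset.range p, (ρ a ^ i) ^ j := by
        rw [Finset.mul_sum]
        refine Finset.sum_congr rfl (fun j _ => ?_)
        simp only [← map_pow, ← map_mul]
        congr 1
        rw [(hab.pow_left j).mul_pow, ← pow_mul, ← pow_mul, mul_comm j i]
        exact ((hab.pow_left _).pow_right _).eq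
      rw [e, geom_pow (ρ a) (by rw [← map_pow, ha, map_one]), Module.End.mul_apply, h2, map_zero]
      intro h0
      rw [ZMod.natCast_eq_zero_iff] at h0
      exact absurd (Nat.le_of_dvd (Nat.pos_of_ne_zero hi0) h0) (by simpa using hi)
    rw [Finset.sum_eq_single 0 s2 (fun h => absurd (Finset.mem_range.2 hp.out.pos) h)] at s1
    simp only [pow_zero, Finset.sum_const, Finset.card_range, LinearMap.smul_apply,
      Module.End.one_apply] at s1
    rw [← Nat.cast_smul_eq_nsmul K, smul_eq_zero] at s1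
    exact s1.resolve_left hK
  rw [i2, finrank_bot] at i1
  rw [Finset.card_range] at g1
  have := hf2 a ha1
  unfold kd at *
  nlinarith

theorem Small.cyc [Finite H] {ρ : Representation K H V} (hs : Small ρ) {p : ℕ} [hp : Fact p.Prime]
    (hp2 : p ≠ 2) (hp5 : p ≤ 5) (P : Subgroup H) (hP : IsPGroup p P) : IsCyclic P := by
  rcases subsingleton_or_nontrivial P with h | h
  · infer_instance
  obtain ⟨z, hz⟩ : ∃ z : Subgroup.center P, orderOf z = p := by
    haveI := hP.center_nontrivial
    obtain ⟨n, hn0, hn⟩ := (hP.to_subgroup (Subgroup.center P)).nontrivial_iff_card.1 inferInstance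
    exact exists_prime_orderOf_dvd_card' p (by rw [hn]; exact dvd_pow_self p hn0.ne')
  have hz' : orderOf (z : P) = p := by rw [Subgroup.orderOf_coe, hz]
  have key : ∀ A : Subgroup P, Nat.card A = p → A = Subgroup.zpowers (z : P) := by
    intro A hA
    have hle : A ≤ Subgroup.zpowers (z : P) := by
      intro b hb
      have hbp : b ^ p = 1 := by
        have := pow_card_eq_one' (x := (⟨b, hb⟩ : A))
        rw [hA] at this
        exact congrArg Subtype.val this
      have hzp : (z : P) ^ p = 1 := by rw [← hz']; exact pow_orderOf_eq_one _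
      obtain ⟨j, hj⟩ := hs.ep hp2 hp5 (a := ((z : P) : H)) (b := (b : H))
        (by rw [← Subgroup.coe_pow, hzp]; rfl) (by rw [← Subgroup.coe_pow, hbp]; rfl)
        (by
          have := Subgroup.mem_center_iff.1 z.2 b
          exact (congrArg Subtype.val this).symm)
        (by
          intro h
          have : (z : P) = 1 := Subtype.ext h
          rw [this, orderOf_one] at hz'
          exact hp.out.one_lt.ne hz')
      have : (z : P) ^ j * b = 1 := Subtype.ext (by simpa using hj)
      rw [eq_inv_of_mul_eq_one_right this]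
      exact inv_mem (pow_mem (Subgroup.mem_zpowers _) _)
    exact Subgroup.eq_of_le_of_card_ge hle (by rw [Nat.card_zpowers, hz', hA])
  rcases Cfsg.Agent.S0016.result p hP (fun A B hA hB => (key A hA).trans (key B hB).symm) with h | h
  · exact h
  · exact absurd h.1 hp2

end Rep

end CF.Dv
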