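import Cfsg.Agent.Sixth.D4

/-! The core case `SL₂(p)`, `p ≡ 2 mod 3`, `p ≥ 11`. -/

set_option autoImplicit false

namespace CF.Dv

theorem core {K V : Type*} [Field K] [AddCommGroup V] [Module K V] [FiniteDimensional K V]
    {p : ℕ} [Fact p.Prime] (h3 : p % 3 = 2) (h11 : 11 ≤ p) (hK : (3 : K) ≠ 0)
    (ρ : Representation K (Matrix.SpecialLinearGroup (Fin 2) (ZMod p)) V) :
    ∃ h, h ≠ 1 ∧ Module.finrank K V ≤ 6 * Module.finrank K (LinearMap.ker (ρ h - 1)) := by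
  by_contra hn
  push Not at hn
  exact CF.Sixth.not_sm h3 h11 hK ρ hn

end CF.Dv
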