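import Cfsg.Agent.Dv.A

/-! S5720: the quaternion trick and coprime lifting. -/

set_option autoImplicit false

namespace CF.Dv

open Subgroup
open scoped commutatorElement

/-- the relations of `SL(2, 3)` put `s` and `x` in a subgroup of exponent dividing 12 -/
theorem exp12 {S : Type*} [Group S] {s x : S} (hx : x ^ 3 = 1) (hz : ∀ g, g * s ^ 2 = s ^ 2 * g)
    (h4 : s ^ 4 = 1) (h3 : x * (x * s * x⁻¹) * x⁻¹ = s * (x * s * x⁻¹)) :
    ∃ B : Subgroup S, s ∈ B ∧ x ∈ B ∧ ∀ g ∈ B, g ^ 12 = 1 := by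
  set t := x * s * x⁻¹ with ht
  have t2 : t ^ 2 = s ^ 2 := by rw [ht, conj_pow, hz]; group
  have u2 : (s * t) ^ 2 = s ^ 2 := by rw [← h3, conj_pow, t2, hz]; group
  let Z : Subgroup S := zpowers (s ^ 2)
  haveI : Z.Normal := ⟨by
    rintro _ ⟨k, rfl⟩ g
    have : Commute g (s ^ 2) := hz g
    refine ⟨k, ?_⟩
    simp only
    rw [(this.zpow_right k).eq]; group⟩
  let π := QuotientGroup.mk' Z
  have hZ : π (s ^ 2) = 1 := (QuotientGroup.eq_one_iff _).2 (mem_zpowers _)
  have p1 : π s * π s = 1 := by rw [← map_mul, ← pow_two, hZ]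
  have p2 : π t * π t = 1 := by rw [← map_mul, ← pow_two, t2, hZ]
  have p3 : π s * π t * (π s * π t) = 1 := by rw [← map_mul, ← map_mul, ← pow_two, u2, hZ]
  have pc : Commute (π s) (π t) := by
    have a1 : (π s)⁻¹ = π s := inv_eq_of_mul_eq_one_right p1
    have a2 : (π t)⁻¹ = π t := inv_eq_of_mul_eq_one_right p2
    have a3 : (π s * π t)⁻¹ = π s * π t := inv_eq_of_mul_eq_one_right p3
    rw [mul_inv_rev, a1, a2] at a3
    exact a3.symm
  let Q : Subgroup S := closure {s, t}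
  have qc : ∀ a ∈ Q, ∀ b ∈ Q, Commute (π a) (π b) := by
    intro a ha b hb
    induction ha, hb using closure_induction₂ with
    | mem a b ha hb =>
      rcases ha with rfl | rfl <;> rcases hb with rfl | rfl
      exacts [Commute.refl _, pc, pc.symm, Commute.refl _]
    | one_left => simp
    | one_right => simp
    | mul_left a b c _ _ _ h1 h2 => rw [map_mul]; exact h1.mul_left h2
    | mul_right a b c _ _ _ h1 h2 => rw [map_mul]; exact h1.mul_right h2
    | inv_left a b _ _ h => rw [map_inv]; exact h.inv_left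
    | inv_right a b _ _ h => rw [map_inv]; exact h.inv_right
  have q2 : ∀ a ∈ Q, π a ^ 2 = 1 := by
    intro a ha
    induction ha using closure_induction with
    | mem a ha =>
      rcases ha with rfl | rfl
      exacts [by rw [pow_two, p1], by rw [pow_two, p2]]
    | one => simp
    | mul a b ha hb h1 h2 => rw [map_mul, (qc a ha b hb).mul_pow, h1, h2, mul_one]
    | inv a _ h => rw [map_inv, inv_pow, h, inv_one]
  have q4 : ∀ a ∈ Q, a ^ 4 = 1 := by
    intro a ha
    have := q2 a ha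
    rw [← map_pow] at this
    obtain ⟨k, hk⟩ := (QuotientGroup.eq_one_iff _).1 this
    simp only at hk
    rw [show 4 = 2 * 2 by norm_num, pow_mul, ← hk, ← zpow_natCast, ← zpow_mul, mul_comm, zpow_mul,
      zpow_natCast, ← pow_mul, h4, one_zpow]
  have hs : s ∈ Q := subset_closure (by simp)
  have htq : t ∈ Q := subset_closure (by simp)
  have qx : ∀ a ∈ Q, x * a * x⁻¹ ∈ Q := by
    intro a ha
    induction ha using closure_induction with
    | mem a ha =>
      rcases ha with rfl | rfl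
      exacts [htq, by rw [h3]; exact mul_mem hs htq]
    | one => simpa using one_mem Q
    | mul a b _ _ h1 h2 =>
      have : x * (a * b) * x⁻¹ = (x * a * x⁻¹) * (x * b * x⁻¹) := by group
      rw [this]; exact mul_mem h1 h2
    | inv a _ h =>
      have : x * a⁻¹ * x⁻¹ = (x * a * x⁻¹)⁻¹ := by group
      rw [this]; exact inv_mem h
  have qn : ∀ (n : ℕ), ∀ a ∈ Q, x ^ n * a * (x ^ n)⁻¹ ∈ Q := by
    intro n
    induction n with
    | zero => intro a ha; simpa using ha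
    | succ n ih =>
      intro a ha
      have : x ^ (n + 1) * a * (x ^ (n + 1))⁻¹ = x * (x ^ n * a * (x ^ n)⁻¹) * x⁻¹ := by group
      rw [this]; exact qx _ (ih a ha)
  have x3 : ∀ n : ℕ, x ^ (3 * n) = 1 := fun n => by rw [pow_mul, hx, one_pow]
  refine ⟨{ carrier := {g | ∃ q ∈ Q, ∃ n : ℕ, g = q * x ^ n}
            mul_mem' := ?_
            one_mem' := ⟨1, one_mem _, 0, by simp⟩
            inv_mem' := ?_ }, ⟨s, hs, 0, by simp⟩, ⟨1, one_mem _, 1, by simp⟩, ?_⟩
  · rintro _ _ ⟨a, ha, m, rfl⟩ ⟨b, hb, n, rfl⟩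
    exact ⟨a * (x ^ m * b * (x ^ m)⁻¹), mul_mem ha (qn m b hb), m + n, by group⟩
  · rintro _ ⟨a, ha, m, rfl⟩
    refine ⟨x ^ (2 * m) * a⁻¹ * (x ^ (2 * m))⁻¹, qn _ _ (inv_mem ha), 2 * m, ?_⟩
    have : (x ^ m)⁻¹ = x ^ (2 * m) := by
      apply inv_eq_of_mul_eq_one_right
      rw [← pow_add, ← x3 m]; congr 1; ring
    rw [mul_inv_rev, this]; group
  · rintro _ ⟨a, ha, m, rfl⟩
    have : (a * x ^ m) ^ 3 = a * (x ^ m * a * (x ^ m)⁻¹) * (x ^ (2 * m) * a * (x ^ (2 * m))⁻¹) *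
        x ^ (3 * m) := by
      rw [pow_succ, pow_two]; group
    rw [show 12 = 3 * 4 by norm_num, pow_mul, this, x3, mul_one]
    exact q4 _ (mul_mem (mul_mem ha (qn _ _ ha)) (qn _ _ ha))

/-- coprime lifting of a subgroup -/
theorem lift_coprime {L S : Type*} [Group L] [Group S] [Finite L] (ψ : L →* S)
    (hψ : Function.Surjective ψ) (B : Subgroup S) (hc : (Nat.card ψ.ker).Coprime (Nat.card B)) :
    ∃ θ : B →* L, ∀ b, ψ (θ b) = b := by
  let T := B.comap ψ
  let φ : T →* B := (ψ.comp T.subtype).codRestrict B (fun t => t.2)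
  have hφ : Function.Surjective φ := by
    rintro ⟨b, hb⟩
    obtain ⟨l, rfl⟩ := hψ b
    exact ⟨⟨l, hb⟩, rfl⟩
  have hk : Nat.card φ.ker ∣ Nat.card ψ.ker := by
    let ι : φ.ker →* ψ.ker := ((T.subtype).comp φ.ker.subtype).codRestrict _ (fun t => by
      have := congrArg Subtype.val (MonoidHom.mem_ker.1 t.2)
      exact this)
    refine card_dvd_of_injective ι ?_
    intro a b h
    have := congrArg Subtype.val h
    exact Subtype.ext (Subtype.ext this)
  have hi : φ.ker.index = Nat.card B := by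
    rw [index_ker, MonoidHom.range_eq_top.2 hφ, card_top]
  obtain ⟨C, hC⟩ := exists_right_complement'_of_coprime (N := φ.ker)
    (by rw [hi]; exact Nat.Coprime.coprime_dvd_left hk hc)
  have hb : Function.Bijective (φ.comp C.subtype) := by
    constructor
    · rw [← MonoidHom.ker_eq_bot_iff, eq_bot_iff]
      intro c hc
      have : (c : T) ∈ φ.ker ⊓ C := ⟨hc, c.2⟩
      rw [hC.disjoint.eq_bot] at this
      exact Subtype.ext this
    · intro b
      obtain ⟨t, rfl⟩ := hφ b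
      obtain ⟨⟨n, c⟩, rfl⟩ := hC.2 t
      refine ⟨c, ?_⟩
      have : φ n = 1 := n.2
      simp [this]
  let e := MulEquiv.ofBijective _ hb
  refine ⟨(T.subtype.comp C.subtype).comp e.symm.toMonoidHom, fun b => ?_⟩
  have := congrArg Subtype.val (e.apply_symm_apply b)
  exact this

theorem comm_of_sq {L : Type*} [Group L] [Finite L] {a b : L} (hb : Odd (orderOf b))
    (h : Commute a (b ^ 2)) : Commute a b := by
  obtain ⟨k, hk⟩ := hb
  have := h.pow_right (k + 1)
  rwa [← pow_mul, show 2 * (k + 1) = (2 * k + 1) + 1 by ring, ← hk, pow_succ, pow_orderOf_eq_one,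
    one_mul] at this

theorem eq_one_of_sq {L : Type*} [Group L] [Finite L] {b : L} (hb : Odd (orderOf b))
    (h : b ^ 2 = 1) : b = 1 := by
  obtain ⟨k, hk⟩ := hb
  have : b ^ (2 * k + 1) = 1 := by rw [← hk, pow_orderOf_eq_one]
  rwa [pow_succ, pow_mul, h, one_pow, one_mul] at this

section Klein

variable {L : Type*} [Group L] [Finite L] {K V : Type*} [Field K] [AddCommGroup V] [Module K V]
  [FiniteDimensional K V] {ρ : Representation K L V}

/-- if `r` fixes `a`, inverts `b` and fixes their commutator, they commute -/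
theorem comm_aux {r a b : L} (hb : Odd (orderOf b)) (h1 : r * a * r⁻¹ = a) (h2 : r * b * r⁻¹ = b⁻¹)
    (h3 : r * ⁅a, b⁆ * r⁻¹ = ⁅a, b⁆) : Commute a b := by
  apply comm_of_sq hb
  have e : r * ⁅a, b⁆ * r⁻¹ = ⁅r * a * r⁻¹, r * b * r⁻¹⁆ := by
    simp only [commutatorElement_def]; group
  rw [e, h1, h2] at h3
  simp only [commutatorElement_def, inv_inv] at h3
  have : b⁻¹ * a⁻¹ * b = b * a⁻¹ * b⁻¹ := by
    apply mul_left_cancel (a := a)
    simpa only [mul_assoc] using h3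
  have h5 : Commute a⁻¹ (b ^ 2) := by
    show a⁻¹ * b ^ 2 = b ^ 2 * a⁻¹
    calc a⁻¹ * b ^ 2 = b * (b⁻¹ * a⁻¹ * b) * b := by rw [pow_two]; group
      _ = b * (b * a⁻¹ * b⁻¹) * b := by rw [this]
      _ = b ^ 2 * a⁻¹ := by rw [pow_two]; group
  simpa using h5.inv_left

theorem claimA (hs : Small ρ) {x s t u : L} (hx : x ^ 3 = 1) (ht : x * s * x⁻¹ = t)
    (hu : x * t * x⁻¹ = u) (P : Subgroup L) [hP : P.Normal] (ho : ∀ a ∈ P, Odd (orderOf a))
    (hc : ∀ a ∈ P, ∀ b ∈ P, s * ⁅a, b⁆ * s⁻¹ = ⁅a, b⁆) {w : L} (hw : w ∈ P)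
    (h1 : s * w * s⁻¹ = w) (h2 : t * w * t⁻¹ = w⁻¹) (h3 : u * w * u⁻¹ = w⁻¹) : w = 1 := by
  have x3 : x * x * x = 1 := by rw [← hx, pow_three']
  have xi : x⁻¹ = x * x := inv_eq_of_mul_eq_one_left x3
  have hsu : x * u * x⁻¹ = s := by
    rw [← hu, ← ht]
    calc _ = (x * x * x) * s * (x * x * x)⁻¹ := by group
      _ = s := by rw [x3]; group
  have hst : x ^ 2 * t * (x ^ 2)⁻¹ = s := by rw [← hsu, ← hu, pow_two]; group
  have a2 : s * (x * w * x⁻¹) * s⁻¹ = (x * w * x⁻¹)⁻¹ := by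
    rw [← hsu]
    calc _ = x * (u * w * u⁻¹) * x⁻¹ := by group
      _ = _ := by rw [h3]; group
  have a3 : s * (x ^ 2 * w * (x ^ 2)⁻¹) * s⁻¹ = (x ^ 2 * w * (x ^ 2)⁻¹)⁻¹ := by
    rw [← hst]
    calc _ = x ^ 2 * (t * w * t⁻¹) * (x ^ 2)⁻¹ := by group
      _ = _ := by rw [h2]; group
  have m2 := hP.conj_mem w hw x
  have m3 := hP.conj_mem w hw (x ^ 2)
  have c2 := comm_aux (ho _ m2) h1 a2 (hc _ hw _ m2)
  have c3 := comm_aux (ho _ m3) h1 a3 (hc _ hw _ m3)
  have c23 : Commute (x * w * x⁻¹) (x ^ 2 * w * (x ^ 2)⁻¹) := by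
    have := c2.map (MulAut.conj x)
    simp only [MulAut.conj_apply] at this
    convert this using 1
    rw [pow_two]; group
  have := hs.v3 hx c2 c3 c23
  have e : x * w * x⁻¹ = w := by rw [this]; group
  rw [e, h1] at a2
  apply eq_one_of_sq (ho w hw)
  rw [pow_two]
  nth_rewrite 1 [a2]
  simp

theorem klein_step (hs : Small ρ) {x s : L} (hx : x ^ 3 = 1) (h4 : s ^ 4 = 1)
    (h3 : x * (x * s * x⁻¹) * x⁻¹ = s * (x * s * x⁻¹)) (P : Subgroup L) [hP : P.Normal]
    (ho : ∀ a ∈ P, Odd (orderOf a)) (hc : ∀ a ∈ ⁅P, P⁆, s * a = a * s) :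
    ∀ a ∈ P, s * a = a * s := by
  set t := x * s * x⁻¹ with ht
  set u := s * t with hu
  have hz : ∀ g, g * s ^ 2 = s ^ 2 * g := hs.inv_central (by rw [← pow_mul, h4])
  have t2 : t ^ 2 = s ^ 2 := by rw [ht, conj_pow, hz]; group
  have u2 : u ^ 2 = s ^ 2 := by rw [← h3, conj_pow, t2, hz]; group
  have x3 : x * x * x = 1 := by rw [← hx, pow_three']
  have hsu : x * u * x⁻¹ = s := by
    rw [← h3, ht]
    calc _ = (x * x * x) * s * (x * x * x)⁻¹ := by group
      _ = s := by rw [x3]; group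
  have cs : ∀ a ∈ P, ∀ b ∈ P, s * ⁅a, b⁆ * s⁻¹ = ⁅a, b⁆ := fun a ha b hb => by
    rw [hc _ (commutator_mem_commutator ha hb)]; group
  have cj : ∀ r r' : L, x * r * x⁻¹ = r' → (∀ a ∈ P, ∀ b ∈ P, r * ⁅a, b⁆ * r⁻¹ = ⁅a, b⁆) →
      ∀ a ∈ P, ∀ b ∈ P, r' * ⁅a, b⁆ * r'⁻¹ = ⁅a, b⁆ := by
    intro r r' hr h a ha b hb
    have := h _ (hP.conj_mem a ha x⁻¹) _ (hP.conj_mem b hb x⁻¹)
    have e : ⁅x⁻¹ * a * x⁻¹⁻¹, x⁻¹ * b * x⁻¹⁻¹⁆ = x⁻¹ * ⁅a, b⁆ * x := by
      simp only [commutatorElement_def]; group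
    rw [e] at this
    rw [← hr]
    calc _ = x * (r * (x⁻¹ * ⁅a, b⁆ * x) * r⁻¹) * x⁻¹ := by group
      _ = _ := by rw [this]; group
  have ct := cj s t rfl cs
  have cu := cj t u h3 ct
  have s2 : ∀ g, s * (s * g * s⁻¹) * s⁻¹ = g := fun g => by
    calc _ = s ^ 2 * g * (s ^ 2)⁻¹ := by rw [pow_two]; group
      _ = g := by rw [← hz]; group
  have t2' : ∀ g, t * (t * g * t⁻¹) * t⁻¹ = g := fun g => by
    calc _ = t ^ 2 * g * (t ^ 2)⁻¹ := by rw [pow_two]; group
      _ = g := by rw [t2, ← hz]; group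
  have ts : t * s = s * t * (s ^ 2)⁻¹ := by
    have e1 : s * t * (s * t) = s ^ 2 := by rw [← pow_two]; exact u2
    have e2 : t * s * t = s := by
      apply mul_left_cancel (a := s)
      rw [← pow_two, ← e1]; group
    calc t * s = (t * s * t) * t * (t ^ 2)⁻¹ := by rw [pow_two]; group
      _ = _ := by rw [e2, t2]
  have st : ∀ g, t * (s * g * s⁻¹) * t⁻¹ = s * (t * g * t⁻¹) * s⁻¹ := fun g => by
    calc _ = (t * s) * g * (t * s)⁻¹ := by group
      _ = s * t * ((s ^ 2)⁻¹ * (g * s ^ 2)) * (s * t)⁻¹ := by rw [ts]; group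
      _ = _ := by rw [hz]; group
  have B : ∀ v ∈ P, t * v * t⁻¹ = v⁻¹ → v = 1 := by
    intro v hv h
    set v' := s * v * s⁻¹ with hv'
    have m : v' ∈ P := hP.conj_mem v hv s
    have c : Commute v v' := by
      rw [← commutatorElement_eq_one_iff_commute]
      apply eq_one_of_sq (ho _ (commutator_le_left P P (commutator_mem_commutator hv m)))
      have e : s * ⁅v, v'⁆ * s⁻¹ = ⁅s * v * s⁻¹, s * v' * s⁻¹⁆ := by
        simp only [commutatorElement_def]; group
      rw [cs v hv v' m, hv', s2, ← hv'] at e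
      rw [pow_two]
      nth_rewrite 1 [e]
      simp only [commutatorElement_def]; group
    have h' : t * v' * t⁻¹ = v'⁻¹ := by rw [hv', st, h]; group
    have w1 : s * (v * v') * s⁻¹ = v * v' := by
      calc _ = (s * v * s⁻¹) * (s * (s * v * s⁻¹) * s⁻¹) := by rw [hv']; group
        _ = _ := by rw [s2, ← hv', c.eq]
    have w2 : t * (v * v') * t⁻¹ = (v * v')⁻¹ := by
      calc _ = (t * v * t⁻¹) * (t * v' * t⁻¹) := by group
        _ = _ := by rw [h, h', c.eq]; group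
    have w3 : u * (v * v') * u⁻¹ = (v * v')⁻¹ := by
      calc _ = s * (t * (v * v') * t⁻¹) * s⁻¹ := by rw [hu]; group
        _ = (s * (v * v') * s⁻¹)⁻¹ := by rw [w2]; group
        _ = _ := by rw [w1]
    have := claimA hs hx rfl h3 P ho cs (mul_mem hv m) w1 w2 w3
    have e : s * v * s⁻¹ = v⁻¹ := eq_inv_of_mul_eq_one_right this
    have e3 : u * v * u⁻¹ = v := by
      calc _ = s * (t * v * t⁻¹) * s⁻¹ := by rw [hu]; group
        _ = (s * v * s⁻¹)⁻¹ := by rw [h]; group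
        _ = _ := by rw [e, inv_inv]
    exact claimA hs hx hsu rfl P ho cu hv e3 e h
  intro a ha
  have m := hP.conj_mem a ha x
  set y := x * a * x⁻¹ with hy
  have := B (y * (t * y⁻¹ * t⁻¹)) (mul_mem m (hP.conj_mem _ (inv_mem m) t)) (by
    calc _ = (t * y * t⁻¹) * (t * (t * y⁻¹ * t⁻¹) * t⁻¹) := by group
      _ = _ := by rw [t2']; group)
  have e : y * t = t * y := by
    calc y * t = (y * (t * y⁻¹ * t⁻¹)) * t * y := by group
      _ = _ := by rw [this]; group
  rw [hy, ht] at e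
  calc s * a = x⁻¹ * (x * s * x⁻¹ * (x * a * x⁻¹)) * x := by group
    _ = _ := by rw [← e]; group

theorem klein (hs : Small ρ) {x s : L} (hx : x ^ 3 = 1) (h4 : s ^ 4 = 1)
    (h3 : x * (x * s * x⁻¹) * x⁻¹ = s * (x * s * x⁻¹)) (N : Subgroup L) [hN : N.Normal]
    (ho : Odd (Nat.card N)) (hsol : Group.IsSolvable N) : ∀ a ∈ N, s * a = a * s := by
  obtain ⟨n, hn⟩ := hsol
  have hle : ∀ k, (derivedSeries N k).map N.subtype ≤ N := fun k => map_subtype_le _
  have key : ∀ k, (∀ a ∈ (derivedSeries N k).map N.subtype, s * a = a * s) →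
      ∀ a ∈ N, s * a = a * s := by
    intro k
    induction k with
    | zero =>
      intro h a ha
      exact h a ⟨⟨a, ha⟩, mem_top _, rfl⟩
    | succ k ih =>
      intro h
      apply ih
      haveI : ((derivedSeries N k).map N.subtype).Normal := inferInstance
      refine klein_step hs hx h4 h3 _ (fun a ha => ?_) ?_
      · exact ho.of_dvd_nat (by
          rw [← Subgroup.orderOf_mk a (hle k ha)]; exact orderOf_dvd_natCard _)
      · rwa [derivedSeries_succ, map_commutator] at h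
  apply key n
  rw [hn, Subgroup.map_bot]
  intro a ha
  rw [mem_bot.1 ha]; simp

end Klein

end CF.Dv
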