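import Cfsg.Agent.Dv.G1
import Cfsg.Agent.Classical.SmallIso
import Cfsg.Agent.Classical.SL2Class
import Cfsg.Agent.Transfer.Tate
import Cfsg.Agent.S0102
import Cfsg.Agent.S0205
import Cfsg.Agent.S0262

/-! S5720: a minimal cover of `SL(2, p)` with odd kernel is trivial. -/

set_option autoImplicit false

namespace CF.Dv

open Subgroup CF.Classical
open scoped commutatorElement MatrixGroups

theorem ex_sx {F : Type*} [Field F] (h2 : (2 : F) ≠ 0) {a b : F} (hab : a ^ 2 + b ^ 2 = -1) :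
    ∃ s x : SL(2, F), x ^ 3 = 1 ∧ s ^ 2 = -1 ∧ x * (x * s * x⁻¹) * x⁻¹ = s * (x * s * x⁻¹) := by
  obtain ⟨h, hh⟩ : ∃ h : F, 2 * h = 1 := ⟨2⁻¹, mul_inv_cancel₀ h2⟩
  let i : SL(2, F) := sl2 a b b (-a) (by linear_combination -hab)
  let j : SL(2, F) := sl2 0 1 (-1) 0 (by simp)
  let x : SL(2, F) := sl2 (h * (-1 - a + b)) (h * (-b - 1 - a)) (h * (-b + 1 - a)) (h * (-1 + a - b))
    (by grind)
  have e1 : x * i = j * x := by
    simp only [x, i, j, sl2_mul, sl2_eq_sl2_iff]
    refine ⟨?_, ?_, ?_, ?_⟩ <;> grind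
  have e2 : x * j = i * j * x := by
    simp only [x, i, j, sl2_mul, sl2_eq_sl2_iff]
    refine ⟨?_, ?_, ?_, ?_⟩ <;> grind
  have e1' : x * i * x⁻¹ = j := by rw [e1]; simp
  refine ⟨i, x, ?_, ?_, ?_⟩
  · simp only [pow_three, x, sl2_mul, one_eq_sl2, sl2_eq_sl2_iff]
    refine ⟨?_, ?_, ?_, ?_⟩ <;> grind
  · simp only [pow_two, i, sl2_mul, neg_one_eq_sl2, sl2_eq_sl2_iff]
    refine ⟨?_, ?_, ?_, ?_⟩ <;> grind
  · rw [e1', e2]; simp

theorem sl2_qs {F : Type*} [Field F] [Finite F] (h : 4 ≤ Nat.card F) (K : Subgroup SL(2, F))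
    (n : K.Normal) : K = ⊤ ∨ ∀ a ∈ K, a = 1 ∨ a = -1 := by
  have := isSimpleGroup_PSL2 h
  have sj : Function.Surjective (slToPSL F) := QuotientGroup.mk'_surjective _
  refine (n.map _ sj).eq_bot_or_eq_top.symm.imp (fun e => ?_) fun e a ha =>
    slToPSL_eq_one_iff.1 (mem_bot.1 (e.le (mem_map_of_mem _ ha)))
  have k : ∀ a, ∃ b ∈ K, a = b ∨ a = -b := fun a =>
    let ⟨b, hb, q⟩ := e.ge (mem_top (slToPSL F a)); ⟨b, hb, slToPSL_eq_iff.1 q.symm⟩
  rw [eq_top_iff, ← commutator_SL2_eq_top h]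
  refine commutator_le.2 fun a _ c _ => ?_
  obtain ⟨b, hb, rfl | rfl⟩ := k a
  · simpa only [commutatorElement_def, mul_assoc] using mul_mem hb (n.conj_mem _ (inv_mem hb) c)
  · have : ⁅-b, c⁆ = b * (c * b⁻¹ * c⁻¹) := by
      rw [commutatorElement_def, show (-b)⁻¹ = -b⁻¹ from inv_eq_of_mul_eq_one_right (by simp)]
      simp [mul_assoc]
    exact this ▸ mul_mem hb (n.conj_mem _ (inv_mem hb) c)

theorem syl_cyc {p : ℕ} [hp : Fact p.Prime] (r : ℕ) [hr : Fact r.Prime] (h2 : r ≠ 2)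
    (R : Sylow r SL(2, ZMod p)) : IsCyclic R := by
  by_cases h : r = p
  · subst h
    apply isCyclic_of_card_dvd_prime (p := r)
    have hc := R.card_eq_multiplicity
    rw [card_SL2, Nat.card_zmod] at hc
    rw [hc]
    have h1 : ¬ r ∣ r ^ 2 - 1 := by
      intro hd
      have : r ∣ r ^ 2 - (r ^ 2 - 1) := Nat.dvd_sub (dvd_pow_self r two_ne_zero) hd
      rw [Nat.sub_sub_self (Nat.one_le_pow _ _ hp.out.pos)] at this
      exact hp.out.one_lt.ne' (Nat.dvd_one.1 this)
    have h0 : r ^ 2 - 1 ≠ 0 := fun e => h1 (e ▸ dvd_zero r)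
    rw [Nat.factorization_mul hp.out.ne_zero h0, Finsupp.add_apply, hp.out.factorization_self,
      Nat.factorization_eq_zero_of_not_dvd h1]
    simp
  · exact Cfsg.Agent.S0262.result p r h2 h R

section Min

variable {L : Type*} [Group L] [Finite L] {K V : Type*} [Field K] [AddCommGroup V] [Module K V]
  [FiniteDimensional K V] {ρ : Representation K L V}

theorem cyc_central (hL : commutator L = ⊤) (A : Subgroup L) [A.Normal] [IsCyclic A] :
    A ≤ center L := by
  have h1 : commutator L ≤ (MulAut.conjNormal (H := A)).ker := by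
    letI : CommGroup (MulAut A) :=
      { (inferInstance : Group (MulAut A)) with
        mul_comm := fun a b => (IsCyclic.mulAutMulEquiv A).injective (by
          rw [map_mul, map_mul, mul_comm]) }
    exact Abelianization.commutator_subset_ker _
  intro a ha
  rw [mem_center_iff]
  intro g
  have := h1 (hL ▸ mem_top g)
  have h2 := congrArg (fun φ : MulAut A => ((φ ⟨a, ha⟩ : A) : L)) (MonoidHom.mem_ker.1 this)
  simp only [MulAut.conjNormal_apply, MulAut.one_apply] at h2
  calc g * a = g * a * g⁻¹ * g := by group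
    _ = a * g := by rw [h2]

theorem not_three {S : Type*} [Group S] (hs : Small ρ) (ψ : L →* S) (hL : commutator L = ⊤)
    (hmin : ∀ M : Subgroup L, M ⊔ ψ.ker = ⊤ → M = ⊤) : ¬ 3 ∣ Nat.card ψ.ker := by
  intro h3
  haveI : Fact (Nat.Prime 3) := ⟨Nat.prime_three⟩
  obtain ⟨R⟩ : Nonempty (Sylow 3 ψ.ker) := inferInstance
  set A := (R : Subgroup ψ.ker).map ψ.ker.subtype with hA
  have hn : normalizer (A : Set L) = ⊤ := hmin _ (Sylow.normalizer_sup_eq_top R)
  haveI : A.Normal := normalizer_eq_top_iff.1 hn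
  have hp : IsPGroup 3 A := R.isPGroup'.map _
  haveI := hs.cyc (p := 3) (by norm_num) (by norm_num) A hp
  obtain ⟨P, hP⟩ := hp.exists_le_sylow
  haveI := hs.cyc (p := 3) (by norm_num) (by norm_num) P P.isPGroup'
  have h1 := CF.Transfer.abelian_hall_inf_commutator_inf_center (H := (P : Subgroup L))
    inferInstance P.card_coprime_index
  have h2 : A = ⊥ := by
    rw [eq_bot_iff, ← h1]
    exact le_inf (le_inf hP (hL ▸ le_top)) (cyc_central hL A)
  rw [hA, map_eq_bot_iff_of_injective _ ψ.ker.subtype_injective] at h2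
  have h4 := R.card_eq_multiplicity
  rw [h2, card_bot] at h4
  have : (Nat.card ψ.ker).factorization 3 ≠ 0 :=
    (Nat.Prime.factorization_pos_of_dvd Nat.prime_three Nat.card_pos.ne' h3).ne'
  exact this (Nat.pow_eq_one.1 h4.symm |>.resolve_left (by norm_num))

theorem min_inj {p : ℕ} [hp : Fact p.Prime] (h5 : 5 ≤ p) (hs : Small ρ) (ψ : L →* SL(2, ZMod p))
    (hψ : Function.Surjective ψ) (ho : Odd (Nat.card ψ.ker))
    (hmin : ∀ M : Subgroup L, M.map ψ = ⊤ → M = ⊤) : Function.Injective ψ := by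
  have h4 : 4 ≤ Nat.card (ZMod p) := by rw [Nat.card_zmod]; omega
  have h2 : (2 : ZMod p) ≠ 0 := by
    intro h
    have : ((2 : ℕ) : ZMod p) = 0 := by exact_mod_cast h
    rw [ZMod.natCast_eq_zero_iff] at this
    have := Nat.le_of_dvd two_pos this
    omega
  have hL : commutator L = ⊤ := by
    apply hmin
    rw [commutator_def, map_commutator, map_top_of_surjective _ hψ, ← commutator_def,
      commutator_SL2_eq_top h4]
  have h3 := not_three hs ψ hL (fun M hM => hmin M (by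
    rw [← map_top_of_surjective ψ hψ, ← hM, Subgroup.map_sup, map_ker_self, sup_bot_eq]))
  obtain ⟨a, b, hab⟩ := ZMod.sq_add_sq p (-1)
  obtain ⟨s, x, hx, hs2, hr⟩ := ex_sx h2 hab
  have hs4 : s ^ 4 = 1 := by rw [show 4 = 2 * 2 by norm_num, pow_mul, hs2]; simp
  obtain ⟨B, hsB, hxB, hB⟩ := exp12 hx (fun g => by rw [hs2]; simp) hs4 hr
  have hcop : (Nat.card ψ.ker).Coprime (Nat.card B) := by
    apply Nat.Coprime.symm
    apply Nat.coprime_of_dvd
    intro r hr hrB hrN
    haveI := Fact.mk hr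
    obtain ⟨g, hg⟩ := exists_prime_orderOf_dvd_card' r hrB
    have h12 : r ∣ 12 := by
      rw [← hg]
      exact orderOf_dvd_of_pow_eq_one (Subtype.ext (hB g g.2))
    have : r ∣ 2 ^ 2 * 3 := by simpa using h12
    rcases (Nat.Prime.dvd_mul hr).1 this with h | h
    · have := (Nat.prime_dvd_prime_iff_eq hr Nat.prime_two).1 (hr.dvd_of_dvd_pow h)
      subst this
      exact (Nat.not_even_iff_odd.2 ho) (even_iff_two_dvd.2 hrN)
    · have := (Nat.prime_dvd_prime_iff_eq hr Nat.prime_three).1 h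
      subst this
      exact h3 hrN
  obtain ⟨θ, hθ⟩ := lift_coprime ψ hψ B hcop
  have hk := klein hs (x := θ ⟨x, hxB⟩) (s := θ ⟨s, hsB⟩)
    (by rw [← map_pow, ← θ.map_one]; congr 1; exact Subtype.ext hx)
    (by rw [← map_pow, ← θ.map_one]; congr 1; exact Subtype.ext hs4)
    (by simp only [← map_inv, ← map_mul]; congr 1; exact Subtype.ext hr)
    ψ.ker ho (Cfsg.Agent.S0205.result ho)
  have hC : centralizer (ψ.ker : Set L) = ⊤ := by
    apply hmin
    refine (sl2_qs h4 _ (Subgroup.Normal.map inferInstance ψ hψ)).resolve_right (fun h => ?_)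
    have := h s ⟨θ ⟨s, hsB⟩, fun a ha => (hk a ha).symm, hθ _⟩
    rcases this with h | h <;> rw [h] at hs2 <;>
      exact neg_one_ne_one_SL2 h2 (by simpa using hs2.symm)
  have hz : ψ.ker ≤ center L := by
    intro a ha
    rw [mem_center_iff]
    intro g
    exact ((hC ▸ mem_top g : g ∈ centralizer (ψ.ker : Set L)) a ha).symm
  rw [← MonoidHom.ker_eq_bot_iff, ← card_eq_one]
  by_contra hne
  obtain ⟨r, hr, hd⟩ := Nat.exists_prime_and_dvd hne
  haveI := Fact.mk hr
  refine Cfsg.Agent.S0102.result (commutator_SL2_eq_top h4) (p := r) (fun P => syl_cyc r ?_ P) ψ hψ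
    hz hL hd
  rintro rfl
  exact (Nat.not_even_iff_odd.2 ho) (even_iff_two_dvd.2 hd)

end Min

/-- a subgroup mapping onto `SL(2, p)` with odd kernel contains a copy of it -/
theorem ex_embed {X : Type*} [Group X] [Finite X] {K V : Type*} [Field K] [AddCommGroup V]
    [Module K V] [FiniteDimensional K V] {ρ : Representation K X V} {p : ℕ} [hp : Fact p.Prime]
    (h5 : 5 ≤ p) (hs : Small ρ) (ψ : X →* SL(2, ZMod p)) (hψ : Function.Surjective ψ)
    (ho : Odd (Nat.card ψ.ker)) : ∃ f : SL(2, ZMod p) →* X, Function.Injective f := by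
  obtain ⟨L, hL, hmin⟩ := (wellFounded_lt (α := Subgroup X)).has_min {M | M.map ψ = ⊤}
    ⟨⊤, map_top_of_surjective ψ hψ⟩
  have hL' : L.map ψ = ⊤ := hL
  have sj : Function.Surjective (ψ.comp L.subtype) := by
    intro y
    obtain ⟨l, hl, rfl⟩ := (hL' ▸ mem_top y : y ∈ L.map ψ)
    exact ⟨⟨l, hl⟩, rfl⟩
  have := min_inj h5 (hs.comp L.subtype L.subtype_injective) (ψ.comp L.subtype) sj ?_ ?_
  · let e := MulEquiv.ofBijective _ ⟨this, sj⟩
    exact ⟨L.subtype.comp e.symm.toMonoidHom, L.subtype_injective.comp e.symm.injective⟩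
  · refine ho.of_dvd_nat ?_
    let ι : (ψ.comp L.subtype).ker →* ψ.ker :=
      (L.subtype.comp (ψ.comp L.subtype).ker.subtype).codRestrict _ (fun t => t.2)
    refine card_dvd_of_injective ι ?_
    intro a b h
    have := congrArg Subtype.val h
    exact Subtype.ext (Subtype.ext this)
  · intro M hM
    rw [← Subgroup.map_map] at hM
    have h1 := hmin _ hM
    have h2 : M.map L.subtype = L := by
      by_contra hne
      exact h1 (lt_of_le_of_ne (map_subtype_le M) hne)
    apply map_injective L.subtype_injective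
    rw [h2, ← MonoidHom.range_eq_map, range_subtype]

end CF.Dv
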