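import Cfsg.Agent.Dv.G2
import Cfsg.Agent.Bender.App
import Cfsg.Agent.S3099
import Cfsg.Agent.S0253
import Cfsg.Agent.S2119
import Cfsg.Prelude.Def_RootSubgroups

/-! S5720: reduction to `SL(2, p)`. -/

set_option autoImplicit false

namespace CF.Dv

open Subgroup CF.Classical
open scoped commutatorElement MatrixGroups

theorem pull {X S T : Type*} [Group X] [Group S] [Group T] (φ : X →* S)
    (hφ : Function.Surjective φ) (ι : T →* S) (hι : Function.Injective ι) :
    ∃ (Y : Subgroup X) (ψ : Y →* T), Function.Surjective ψ ∧ Nat.card ψ.ker ∣ Nat.card φ.ker := by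
  let e := MonoidHom.ofInjective hι
  let φ' : ι.range.comap φ →* ι.range := (φ.comp (ι.range.comap φ).subtype).codRestrict _ (fun t => t.2)
  refine ⟨ι.range.comap φ, e.symm.toMonoidHom.comp φ', ?_, ?_⟩
  · refine e.symm.surjective.comp ?_
    rintro ⟨s, hs⟩
    obtain ⟨x, rfl⟩ := hφ s
    exact ⟨⟨x, hs⟩, rfl⟩
  · let j : (e.symm.toMonoidHom.comp φ').ker →* φ.ker :=
      ((ι.range.comap φ).subtype.comp (e.symm.toMonoidHom.comp φ').ker.subtype).codRestrict _
        (fun t => by
          have h1 : e.symm (φ' t) = 1 := t.2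
          rw [MulEquiv.map_eq_one_iff] at h1
          exact congrArg Subtype.val h1)
    refine card_dvd_of_injective j ?_
    intro a b h
    have := congrArg Subtype.val h
    exact Subtype.ext (Subtype.ext this)

theorem no_pp {X Y : Type*} [Group X] [Finite X] [Group Y] {p : ℕ} [hp : Fact p.Prime]
    (hc : ∀ P : Subgroup X, IsPGroup p P → IsCyclic P) (f : X →* Y) (hf : Function.Surjective f)
    {a b : Y} (ha : a ^ p = 1) (hb : b ^ p = 1) (hab : Commute a b) (ha1 : a ≠ 1) :
    b ∈ zpowers a := by
  haveI : Finite Y := Finite.of_surjective f hf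
  have hq : ∀ g ∈ closure ({a, b} : Set Y), g ^ p = 1 := by
    have hcm : ∀ x ∈ closure ({a, b} : Set Y), ∀ y ∈ closure ({a, b} : Set Y), Commute x y := by
      intro x hx y hy
      induction hx, hy using closure_induction₂ with
      | mem a b ha hb =>
        rcases ha with rfl | rfl <;> rcases hb with rfl | rfl
        exacts [Commute.refl _, hab, hab.symm, Commute.refl _]
      | one_left => simp
      | one_right => simp
      | mul_left a b c _ _ _ h1 h2 => exact h1.mul_left h2
      | mul_right a b c _ _ _ h1 h2 => exact h1.mul_right h2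
      | inv_left a b _ _ h => exact h.inv_left
      | inv_right a b _ _ h => exact h.inv_right
    intro g hg
    induction hg using closure_induction with
    | mem g hg => rcases hg with rfl | rfl <;> assumption
    | one => simp
    | mul x y hx hy h1 h2 => rw [(hcm x hx y hy).mul_pow, h1, h2, mul_one]
    | inv x _ h => rw [inv_pow, h, inv_one]
  have hP : IsPGroup p (closure ({a, b} : Set Y)) := fun g => ⟨1, Subtype.ext (by
    simpa using hq g g.2)⟩
  obtain ⟨Q, hQ⟩ := hP.exists_le_sylow
  obtain ⟨P, rfl⟩ := Sylow.mapSurjective_surjective hf p Q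
  haveI := hc P P.isPGroup'
  haveI : IsCyclic ((P : Subgroup X).map f) :=
    isCyclic_of_surjective (f.subgroupMap P) (f.subgroupMap_surjective P)
  haveI : IsCyclic (closure ({a, b} : Set Y)) :=
    isCyclic_of_le (H' := (P : Subgroup X).map f) hQ
  have hcard : Nat.card (closure ({a, b} : Set Y)) ∣ p := by
    rw [← IsCyclic.exponent_eq_card]
    exact Monoid.exponent_dvd_of_forall_pow_eq_one (fun g => Subtype.ext (hq g g.2))
  have hle : zpowers a ≤ closure ({a, b} : Set Y) := by
    rw [zpowers_le]; exact subset_closure (by simp)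
  have h1 : Nat.card (zpowers a) = p := by
    rw [Nat.card_zpowers]; exact orderOf_eq_prime ha ha1
  have := eq_of_le_of_card_ge hle (by rw [h1]; exact Nat.le_of_dvd hp.out.pos hcard)
  rw [this]
  exact subset_closure (by simp)

theorem rad_index {H T : Type*} [Group H] [Finite H] [Group T] [IsSimpleGroup T]
    (hT : ¬ Group.IsSolvable T) (X : Subgroup H) [hX : X.Normal] (hq : Group.IsSolvable (H ⧸ X))
    (κ : X →* T) (hκ : Function.Surjective κ) (hs : Group.IsSolvable κ.ker) :
    (Cfsg.solvableRadical H).index ≤ Nat.card (MulAut T) := by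
  haveI : Finite T := Finite.of_surjective κ hκ
  have rad : ∀ M : Subgroup X, M.Normal → Group.IsSolvable M → M ≤ κ.ker := by
    intro M hM hs
    rcases (hM.map κ hκ).eq_bot_or_eq_top with h | h
    · exact (Subgroup.map_eq_bot_iff _).1 h
    · exfalso
      apply hT
      refine Group.isSolvable_of_surjective (f := κ.comp M.subtype) ?_
      intro t
      obtain ⟨m, hm, rfl⟩ := (h ▸ mem_top t : t ∈ M.map κ)
      exact ⟨⟨m, hm⟩, rfl⟩
  let R := κ.ker.map X.subtype
  haveI hR : R.Normal := ⟨by
    rintro _ ⟨r, hr, rfl⟩ g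
    let σ : MulAut X := MulAut.conjNormal g
    have h1 : κ.ker.map σ.toMonoidHom ≤ κ.ker :=
      rad _ (Subgroup.Normal.map inferInstance _ σ.surjective)
        (Group.isSolvable_of_surjective (σ.toMonoidHom.subgroupMap_surjective κ.ker))
    exact ⟨σ r, h1 ⟨r, hr, rfl⟩, rfl⟩⟩
  let π := QuotientGroup.mk' R
  have hπ : Function.Surjective π := QuotientGroup.mk'_surjective R
  let Xb := X.map π
  haveI : Xb.Normal := hX.map π hπ
  have hker : (π.subgroupMap X).ker = κ.ker := by
    ext x
    rw [MonoidHom.mem_ker, Subtype.ext_iff]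
    show π x = 1 ↔ _
    rw [QuotientGroup.mk'_apply, QuotientGroup.eq_one_iff]
    exact mem_map_iff_mem X.subtype_injective
  let e : Xb ≃* T :=
    (QuotientGroup.quotientKerEquivOfSurjective _ (π.subgroupMap_surjective X)).symm.trans
      ((QuotientGroup.quotientMulEquivOfEq hker).trans
        (QuotientGroup.quotientKerEquivOfSurjective _ hκ))
  let α : H →* MulAut Xb := (MulAut.conjNormal (H := Xb)).comp π
  have hZ : center T = ⊥ := by
    refine ((inferInstance : (center T).Normal).eq_bot_or_eq_top).resolve_right (fun h => hT ?_)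
    exact Group.isSolvable_of_comm (fun a b => mem_center_iff.1 (h ▸ mem_top b) a)
  have hsol : Group.IsSolvable α.ker := by
    haveI : Group.IsSolvable R :=
      Group.isSolvable_of_surjective (X.subtype.subgroupMap_surjective κ.ker)
    haveI : Group.IsSolvable (R.subgroupOf α.ker) :=
      Group.isSolvable_of_isSolvable_injective (G' := R)
        (f := (α.ker.subtype.comp (R.subgroupOf α.ker).subtype).codRestrict R (fun t => t.2))
        (fun a b h => by
          have := congrArg Subtype.val h
          exact Subtype.ext (Subtype.ext this))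
    refine Group.isSolvable_of_ker_le_range (R.subgroupOf α.ker).subtype
      ((QuotientGroup.mk' X).comp α.ker.subtype) ?_
    intro c hc
    rw [range_subtype, mem_subgroupOf]
    have hcX : (c : H) ∈ X := (QuotientGroup.eq_one_iff _).1 hc
    have h1 : e (π.subgroupMap X ⟨c, hcX⟩) ∈ center T := by
      rw [mem_center_iff]
      intro t
      obtain ⟨y, rfl⟩ := e.surjective t
      rw [← map_mul, ← map_mul]
      congr 1
      have h2 := congrArg (fun φ : MulAut Xb => ((φ y : Xb) : H ⧸ R)) (MonoidHom.mem_ker.1 c.2)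
      simp only [α, MonoidHom.comp_apply, MulAut.conjNormal_apply, MulAut.one_apply] at h2
      apply Subtype.ext
      show (y : H ⧸ R) * π c = π c * y
      calc (y : H ⧸ R) * π c = π c * y * (π c)⁻¹ * π c := by rw [h2]
        _ = _ := by group
    rw [hZ, mem_bot, MulEquiv.map_eq_one_iff, ← MonoidHom.mem_ker, hker] at h1
    exact ⟨_, h1, rfl⟩
  have hle : α.ker ≤ Cfsg.solvableRadical H := le_sSup ⟨inferInstance, hsol⟩
  have h1 : (Cfsg.solvableRadical H).index ≤ α.ker.index :=
    Nat.le_of_dvd (Nat.pos_of_ne_zero index_ne_zero_of_finite) (index_dvd_of_le hle)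
  rw [index_ker] at h1
  refine h1.trans ?_
  rw [← Nat.card_congr (MulAut.congr e).toEquiv]
  exact card_le_card_group _

theorem aut_a5 : Nat.card (MulAut (alternatingGroup (Fin 5))) = 120 := by
  rw [← Nat.card_congr (Equiv.ofBijective _ (Cfsg.Agent.S2119.result 5 (by norm_num) (by norm_num))),
    Nat.card_perm]
  simp [Nat.factorial]

theorem a5_not_solvable : ¬ Group.IsSolvable (alternatingGroup (Fin 5)) := by
  rw [← IsSimpleGroup.comm_iff_isSolvable]
  intro h
  have := h ⟨Equiv.swap 0 1 * Equiv.swap 0 2, by rw [Equiv.Perm.mem_alternatingGroup]; decide⟩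
    ⟨Equiv.swap 0 1 * Equiv.swap 0 3, by rw [Equiv.Perm.mem_alternatingGroup]; decide⟩
  revert this
  decide

theorem unip_pow {F : Type*} [Field F] (t : F) (n : ℕ) :
    (sl2 1 t 0 1 (by simp) : SL(2, F)) ^ n = sl2 1 (n * t) 0 1 (by simp) := by
  induction n with
  | zero => simp [one_eq_sl2]
  | succ n ih =>
    rw [pow_succ, ih, sl2_mul, sl2_eq_sl2_iff]
    push_cast
    refine ⟨?_, ?_, ?_, ?_⟩ <;> ring

theorem card_le_of_cyc {X F : Type*} [Group X] [Finite X] [Field F] [Fintype F] {p : ℕ}
    [hp : Fact p.Prime] [CharP F p] (hc : ∀ P : Subgroup X, IsPGroup p P → IsCyclic P)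
    (f : X →* SL(2, F)) (hf : Function.Surjective f) : Fintype.card F = p := by
  have h1 : ∀ t : F, (sl2 1 t 0 1 (by simp) : SL(2, F)) ^ p = 1 := fun t => by
    rw [unip_pow, one_eq_sl2, sl2_eq_sl2_iff]; simp
  have hs : Function.Surjective (ZMod.castHom (dvd_refl p) F) := by
    intro t
    have := no_pp hc f hf (h1 1) (h1 t) (by
      show _ * _ = _ * _
      rw [sl2_mul, sl2_mul, sl2_eq_sl2_iff]
      refine ⟨?_, ?_, ?_, ?_⟩ <;> ring) (by
      rw [one_eq_sl2, Ne, sl2_eq_sl2_iff]; simp)
    rw [← mem_powers_iff_mem_zpowers] at this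
    obtain ⟨n, hn⟩ := this
    simp only [unip_pow, sl2_eq_sl2_iff] at hn
    exact ⟨n, by simpa using hn.2.1⟩
  rw [← Fintype.card_congr (Equiv.ofBijective _ ⟨(ZMod.castHom (dvd_refl p) F).injective, hs⟩),
    ZMod.card]

variable {H : Type*} [Group H] [Finite H] {K V : Type*} [Field K] [AddCommGroup V] [Module K V]
  [FiniteDimensional K V] {ρ : Representation K H V}

theorem reduce0 (hR : 120 < (Cfsg.solvableRadical H).index) (hs : Small ρ) :
    ∃ p : ℕ, ∃ _ : Fact p.Prime, 7 ≤ p ∧ ∃ f : SL(2, ZMod p) →* H, Function.Injective f := by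
  obtain ⟨_, ⟨n, rfl⟩, hmin⟩ := (wellFounded_lt (α := Subgroup H)).has_min
    (Set.range (derivedSeries H)) ⟨_, 0, rfl⟩
  set X := derivedSeries H n with hX
  have hXX : ⁅X, X⁆ = X := by
    by_contra hne
    exact hmin _ ⟨n + 1, rfl⟩ (lt_of_le_of_ne (derivedSeries_antitone H (Nat.le_succ n)) hne)
  haveI : X.Normal := derivedSeries_normal H n
  have hP : commutator X = ⊤ := by
    apply map_injective X.subtype_injective
    rw [_root_.commutator_def, map_commutator, ← MonoidHom.range_eq_map, range_subtype, hXX]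
  have hq : Group.IsSolvable (H ⧸ X) := ⟨⟨n, by
    rw [← map_derivedSeries_eq (QuotientGroup.mk'_surjective X), Subgroup.map_eq_bot_iff,
      QuotientGroup.ker_mk']⟩⟩
  have hns : ¬ Group.IsSolvable X := by
    intro h
    have : Group.IsSolvable H := (Group.isSolvable_iff_subgroup_quotient X).2 ⟨h, hq⟩
    have h2 : Cfsg.solvableRadical H = ⊤ := eq_top_iff.2 (le_sSup ⟨inferInstance, inferInstance⟩)
    rw [h2, index_top] at hR
    omega
  have hsX := hs.comp X.subtype X.subtype_injective
  have hev : Even (Nat.card X) := by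
    rw [← Nat.not_odd_iff_even]
    exact fun h => hns (Cfsg.Agent.S0205.result h)
  have hrk : Cfsg.PRankLE 2 1 X := by
    intro A _ hA
    by_cases h : ∃ z ∈ A, z ≠ 1
    · obtain ⟨z, hz, hz1⟩ := h
      have : A ≤ zpowers z := by
        intro a ha
        by_cases ha1 : a = 1
        · rw [ha1]; exact one_mem _
        · rw [hsX.inv_unique (hA a ha) (hA z hz) ha1 hz1]; exact mem_zpowers _
      refine (card_le_of_le this).trans ?_
      rw [Nat.card_zpowers, pow_one]
      exact Nat.le_of_dvd two_pos (orderOf_dvd_of_pow_eq_one (hA z hz))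
    · push Not at h
      rw [(eq_bot_iff_forall A).2 h, card_bot]; norm_num
  haveI : Fact (Nat.Prime 3) := ⟨Nat.prime_three⟩
  haveI : Fact (Nat.Prime 5) := ⟨Nat.prime_five⟩
  have c3 := hsX.cyc (p := 3) (by norm_num) (by norm_num)
  have c5 := hsX.cyc (p := 5) (by norm_num) (by norm_num)
  have hO : Odd (Nat.card (Cfsg.oddCore X)) := CF.Bender.oddCore_odd
  rcases Cfsg.Agent.S3099.result ⟨hP⟩ hrk hev with ⟨F, _, _, hodd, h3, ⟨e⟩⟩ | ⟨-, ⟨e⟩, -⟩
  · let φ : X →* SL(2, F) := e.toMonoidHom.comp (QuotientGroup.mk' _)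
    have hφ : Function.Surjective φ := e.surjective.comp (QuotientGroup.mk'_surjective _)
    have hk : φ.ker = Cfsg.oddCore X := by
      ext x
      rw [MonoidHom.mem_ker]
      show e _ = 1 ↔ _
      rw [MulEquiv.map_eq_one_iff, QuotientGroup.mk'_apply, QuotientGroup.eq_one_iff]
    obtain ⟨p, hp⟩ := CharP.exists F
    obtain ⟨m, hpp, hm⟩ := FiniteField.card F p
    haveI := Fact.mk hpp
    have p2 : p ≠ 2 := by
      rintro rfl
      rw [hm, Nat.odd_pow_iff m.ne_zero] at hodd
      exact absurd hodd (by decide)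
    have p3 : p ≠ 3 := by
      rintro rfl
      have := card_le_of_cyc c3 φ hφ
      omega
    have p5 : p ≠ 5 := by
      rintro rfl
      have h5 := card_le_of_cyc c5 φ hφ
      obtain ⟨e5⟩ := Cfsg.Agent.S0253.result h5
      let κ : X →* alternatingGroup (Fin 5) := e5.toMonoidHom.comp ((slToPSL F).comp φ)
      have sj : Function.Surjective (slToPSL F) := QuotientGroup.mk'_surjective _
      have := rad_index a5_not_solvable X hq κ (e5.surjective.comp (sj.comp hφ)) (by
        haveI : Group.IsSolvable φ.ker := Cfsg.Agent.S0205.result (hk ▸ hO)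
        haveI : Group.IsSolvable (φ.ker.subgroupOf κ.ker) :=
          Group.isSolvable_of_isSolvable_injective (G' := φ.ker)
            (f := (κ.ker.subtype.comp (φ.ker.subgroupOf κ.ker).subtype).codRestrict _ (fun t => t.2))
            (fun a b h => by
          have := congrArg Subtype.val h
          exact Subtype.ext (Subtype.ext this))
        haveI : Group.IsSolvable (center SL(2, F)) :=
          Group.isSolvable_of_comm (fun a b => Subtype.ext (mem_center_iff.1 b.2 a))
        refine Group.isSolvable_of_ker_le_range (G'' := center SL(2, F))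
          (φ.ker.subgroupOf κ.ker).subtype
          ((φ.comp κ.ker.subtype).codRestrict _ (fun t => ?_)) ?_
        · have h1 : e5 (slToPSL F (φ t)) = 1 := t.2
          rw [MulEquiv.map_eq_one_iff, slToPSL_eq_one_iff] at h1
          exact mem_center_SL2_iff.2 h1
        · intro c hc
          rw [range_subtype, mem_subgroupOf]
          exact congrArg Subtype.val (MonoidHom.mem_ker.1 hc))
      rw [aut_a5] at this
      omega
    have p7 : 7 ≤ p := by
      have := hpp.two_le
      by_contra h
      push Not at h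
      interval_cases p <;> simp_all (config := { decide := true })
    let ι : SL(2, ZMod p) →* SL(2, F) := Matrix.SpecialLinearGroup.map (ZMod.castHom (dvd_refl p) F)
    have hι : Function.Injective ι := by
      intro a b h
      ext i j
      apply (ZMod.castHom (dvd_refl p) F).injective
      exact congrArg (fun g : SL(2, F) => g.1 i j) h
    obtain ⟨Y, ψ, hψ, hd⟩ := pull φ hφ ι hι
    obtain ⟨f, hf⟩ := ex_embed (by omega) (hsX.comp Y.subtype Y.subtype_injective) ψ hψ
      (Odd.of_dvd_nat (hk ▸ hO) hd)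
    exact ⟨p, inferInstance, p7, X.subtype.comp (Y.subtype.comp f),
      X.subtype_injective.comp (Y.subtype_injective.comp hf)⟩
  · exfalso
    let φ : X →* alternatingGroup (Fin 7) :=
      e.toMonoidHom.comp ((QuotientGroup.mk' _).comp (QuotientGroup.mk' _))
    have hφ : Function.Surjective φ :=
      e.surjective.comp ((QuotientGroup.mk'_surjective _).comp (QuotientGroup.mk'_surjective _))
    have := no_pp c3 φ hφ 
      (a := ⟨Equiv.swap 0 1 * Equiv.swap 0 2, by rw [Equiv.Perm.mem_alternatingGroup]; decide⟩)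
      (b := ⟨Equiv.swap 3 4 * Equiv.swap 3 5, by rw [Equiv.Perm.mem_alternatingGroup]; decide⟩)
      (by decide) (by decide)
      (by show _ * _ = _ * _; decide) (by decide)
    obtain ⟨k, hk⟩ := this
    have h1 := congrArg (fun g : alternatingGroup (Fin 7) => (g : Equiv.Perm (Fin 7)) 3) hk
    simp only [SubgroupClass.coe_zpow] at h1
    rw [Equiv.Perm.zpow_apply_eq_self_of_apply_eq_self (by decide)] at h1
    revert h1
    decide

theorem not_one_mod {p : ℕ} [hp : Fact p.Prime] (h1 : p % 3 = 1)
    {σ : Representation K SL(2, ZMod p) V} : ¬ Small σ := by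
  intro hs
  haveI : Fact (Nat.Prime 3) := ⟨Nat.prime_three⟩
  obtain ⟨a, ha⟩ := exists_prime_orderOf_dvd_card' (G := (ZMod p)ˣ) 3 (by
    rw [Nat.card_eq_fintype_card, ZMod.card_units]; omega)
  have a3 : (a : ZMod p) ^ 3 = 1 := by
    rw [← Units.val_pow_eq_pow_val, ← ha, pow_orderOf_eq_one, Units.val_one]
  have a1 : (a : ZMod p) ≠ 1 := by
    intro h
    rw [Units.val_eq_one.1 h, orderOf_one] at ha
    omega
  set t := (a : ZMod p)
  let c : SL(2, ZMod p) := sl2 t 0 0 (t ^ 2) (by linear_combination a3)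
  let w : SL(2, ZMod p) := sl2 1 1 0 1 (by simp)
  have := hs.v3 (c := c) (w := w) ?_ ?_ ?_ ?_
  · simp only [c, w, sl2_mul, sl2_eq_sl2_iff] at this
    apply a1
    grind
  · simp only [c, pow_three, sl2_mul, one_eq_sl2, sl2_eq_sl2_iff]
    refine ⟨?_, ?_, ?_, ?_⟩ <;> grind
  all_goals
    show _ * _ = _ * _
    simp only [c, w, pow_two c, sl2_inv, sl2_mul, sl2_eq_sl2_iff]
    refine ⟨?_, ?_, ?_, ?_⟩ <;> grind

theorem three_ne {p : ℕ} [hp : Fact p.Prime] {σ : Representation K SL(2, ZMod p) V}
    (hs : Small σ) : (3 : K) ≠ 0 := by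
  let c : SL(2, ZMod p) := sl2 0 (-1) 1 (-1) (by simp)
  have := hs.ne_char (p := 3) Nat.prime_three (by norm_num) (by norm_num) (a := c) (by
    simp [c, pow_three, sl2_mul, one_eq_sl2, sl2_eq_sl2_iff]) (by
    simp [c, one_eq_sl2, sl2_eq_sl2_iff])
  exact_mod_cast this

theorem reduce (hR : 120 < (Cfsg.solvableRadical H).index) (hs : Small ρ) :
    ∃ p : ℕ, ∃ _ : Fact p.Prime, p % 3 = 2 ∧ 11 ≤ p ∧ (3 : K) ≠ 0 ∧
      ∃ σ : Representation K SL(2, ZMod p) V, Small σ := by
  obtain ⟨p, hp, h7, f, hf⟩ := reduce0 hR hs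
  have h := hs.comp f hf
  have h1 : p % 3 ≠ 1 := fun e => not_one_mod e h
  have h0 : p % 3 ≠ 0 := fun e => by
    have := (Nat.prime_dvd_prime_iff_eq Nat.prime_three hp.out).1 (Nat.dvd_of_mod_eq_zero e)
    omega
  have h8 : p ≠ 8 := by rintro rfl; exact absurd hp.out (by decide)
  exact ⟨p, hp, by omega, by omega, three_ne h, _, h⟩

end CF.Dv
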